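import Mathlib
import Cfsg.Agent.Lib.Helper6.A7.Defs
import Cfsg.Agent.Lib.Helper17.Simple
import Cfsg.Agent.Lib.Helper17.Count

/-!
# S0984 package [F2a] (for helper6): the structure of `N(P₃)` of order 36 with `C(P₃) = P₃`.
-/

set_option autoImplicit false

universe u

namespace Cfsg.Agent.Lib.Helper38.A7

open Cfsg.Agent.Lib.Helper6.A7

section gen

variable {G : Type u} [Group G]

/-- the points of `P` fixed by conjugation with `t` -/
def fixP (P : Subgroup G) (t : G) : Subgroup G where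
  carrier := {y | y ∈ P ∧ t * y * t⁻¹ = y}
  one_mem' := ⟨P.one_mem, by group⟩
  mul_mem' := by
    rintro a b ⟨ha, ha2⟩ ⟨hb, hb2⟩
    refine ⟨P.mul_mem ha hb, ?_⟩
    calc t * (a * b) * t⁻¹ = (t * a * t⁻¹) * (t * b * t⁻¹) := by group
      _ = a * b := by rw [ha2, hb2]
  inv_mem' := by
    rintro a ⟨ha, ha2⟩
    refine ⟨P.inv_mem ha, ?_⟩
    calc t * a⁻¹ * t⁻¹ = (t * a * t⁻¹)⁻¹ := by group
      _ = a⁻¹ := by rw [ha2]

/-- the points of the abelian group `P` inverted by conjugation with `t` -/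
def invP (P : Subgroup G) (hab : ∀ a ∈ P, ∀ b ∈ P, a * b = b * a) (t : G) : Subgroup G where
  carrier := {y | y ∈ P ∧ t * y * t⁻¹ = y⁻¹}
  one_mem' := ⟨P.one_mem, by group⟩
  mul_mem' := by
    rintro a b ⟨ha, ha2⟩ ⟨hb, hb2⟩
    refine ⟨P.mul_mem ha hb, ?_⟩
    calc t * (a * b) * t⁻¹ = (t * a * t⁻¹) * (t * b * t⁻¹) := by group
      _ = a⁻¹ * b⁻¹ := by rw [ha2, hb2]
      _ = (b * a)⁻¹ := by group
      _ = (a * b)⁻¹ := by rw [hab a ha b hb]
  inv_mem' := by
    rintro a ⟨ha, ha2⟩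
    refine ⟨P.inv_mem ha, ?_⟩
    calc t * a⁻¹ * t⁻¹ = (t * a * t⁻¹)⁻¹ := by group
      _ = a⁻¹⁻¹ := by rw [ha2]

/-- an abelian self-centralizing subgroup of order nine -/
structure Ctx (P : Subgroup G) : Prop where
  card : Nat.card P = 9
  ab : ∀ a ∈ P, ∀ b ∈ P, a * b = b * a
  cen : ∀ g : G, (∀ y ∈ P, g * y = y * g) → g ∈ P

variable {P : Subgroup G}

theorem Ctx.pow9 (c : Ctx P) {y : G} (hy : y ∈ P) : y ^ 9 = 1 := by
  have h : (⟨y, hy⟩ : P) ^ Nat.card P = 1 := pow_card_eq_one'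
  rw [c.card] at h
  simpa using congrArg Subtype.val h

theorem Ctx.eq_one_of_sq (c : Ctx P) {y : G} (hy : y ∈ P) (h2 : y * y = 1) : y = 1 := by
  have h9 := c.pow9 hy
  have h8 : y ^ 8 = 1 := by
    have e8 : y ^ 8 = (y * y) ^ 4 := by rw [← pow_two, ← pow_mul]
    rw [e8, h2, one_pow]
  have e : y = y ^ 9 * (y ^ 8)⁻¹ := by group
  rw [e, h9, h8]; simp

theorem conj_mem_of_mem_normalizer {t y : G} (ht : t ∈ Subgroup.normalizer (P : Set G))
    (hy : y ∈ P) : t * y * t⁻¹ ∈ P :=
  (Subgroup.mem_normalizer_iff.mp ht y).mp hy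

theorem Ctx.not_cen (c : Ctx P) {t : G} (ht2 : t * t = 1) (ht1 : t ≠ 1) :
    ¬ ∀ y ∈ P, t * y * t⁻¹ = y := by
  intro h
  apply ht1
  apply c.eq_one_of_sq _ ht2
  apply c.cen
  intro y hy
  have h1 := h y hy
  calc t * y = t * y * t⁻¹ * t := by group
    _ = y * t := by rw [h1]

theorem Ctx.inv_of_fix_bot (c : Ctx P) {t : G} (ht : t ∈ Subgroup.normalizer (P : Set G))
    (ht2 : t * t = 1) (hf : fixP P t = ⊥) : ∀ y ∈ P, t * y * t⁻¹ = y⁻¹ := by
  intro y hy
  have hty := conj_mem_of_mem_normalizer ht hy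
  have hmem : y * (t * y * t⁻¹) ∈ fixP P t := by
    refine ⟨P.mul_mem hy hty, ?_⟩
    have e : t * (y * (t * y * t⁻¹)) * t⁻¹ = (t * y * t⁻¹) * ((t * t) * y * (t * t)⁻¹) := by group
    rw [e, ht2]
    simp only [one_mul, inv_one, mul_one]
    exact c.ab _ hty _ hy
  rw [hf, Subgroup.mem_bot] at hmem
  exact eq_inv_of_mul_eq_one_right hmem

theorem Ctx.invP_ne_bot (c : Ctx P) {t : G} (ht : t ∈ Subgroup.normalizer (P : Set G))
    (ht2 : t * t = 1) (ht1 : t ≠ 1) : invP P c.ab t ≠ ⊥ := by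
  intro hf
  apply c.not_cen ht2 ht1
  intro y hy
  have hty := conj_mem_of_mem_normalizer ht hy
  have hmem : y * (t * y * t⁻¹)⁻¹ ∈ invP P c.ab t := by
    refine ⟨P.mul_mem hy (P.inv_mem hty), ?_⟩
    have e : t * (y * (t * y * t⁻¹)⁻¹) * t⁻¹
        = (t * y * t⁻¹) * ((t * t) * y * (t * t)⁻¹)⁻¹ := by group
    rw [e, ht2]
    simp only [one_mul, inv_one, mul_one]
    group
  rw [hf, Subgroup.mem_bot] at hmem
  exact (mul_inv_eq_one.mp hmem).symm

theorem Ctx.fix_inf_inv (c : Ctx P) {t y : G} (h1 : y ∈ fixP P t) (h2 : y ∈ invP P c.ab t) :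
    y = 1 := by
  apply c.eq_one_of_sq h1.1
  have e : y⁻¹ = y := h2.2.symm.trans h1.2
  calc y * y = y * y⁻¹ := by rw [e]
    _ = 1 := mul_inv_cancel y

theorem Ctx.card3 (c : Ctx P) {H : Subgroup G} (hH : H ≤ P) (h1 : H ≠ ⊥) (h2 : H ≠ P) :
    Nat.card H = 3 := by
  have hfin : Finite P := Nat.finite_of_card_ne_zero (by rw [c.card]; norm_num)
  have hd : Nat.card H ∣ 9 := c.card ▸ Subgroup.card_dvd_of_le hH
  have hle : Nat.card H ≤ 9 := Nat.le_of_dvd (by norm_num) hd
  have hne1 : Nat.card H ≠ 1 := fun h => h1 (Subgroup.eq_bot_of_card_eq H h)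
  have hne9 : Nat.card H ≠ 9 :=
    fun h => h2 (Subgroup.eq_of_le_of_card_ge hH (by rw [h, c.card]))
  generalize Nat.card H = n at hd hle hne1 hne9
  interval_cases n <;> first | rfl | omega

/-- both eigen-subgroups of an involution with a nontrivial fixed point have order three -/
theorem Ctx.card_fix_inv (c : Ctx P) {t : G} (ht : t ∈ Subgroup.normalizer (P : Set G))
    (ht2 : t * t = 1) (ht1 : t ≠ 1) (hf : fixP P t ≠ ⊥) :
    Nat.card (fixP P t) = 3 ∧ Nat.card (invP P c.ab t) = 3 := by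
  have hi := c.invP_ne_bot ht ht2 ht1
  constructor
  · apply c.card3 (H := fixP P t) (fun y hy => hy.1) hf
    intro hEq
    apply hi
    rw [Subgroup.eq_bot_iff_forall]
    intro y hy
    have hyf : y ∈ fixP P t := by rw [hEq]; exact hy.1
    exact c.fix_inf_inv hyf hy
  · apply c.card3 (H := invP P c.ab t) (fun y hy => hy.1) hi
    intro hEq
    apply hf
    rw [Subgroup.eq_bot_iff_forall]
    intro y hy
    have hyi : y ∈ invP P c.ab t := by rw [hEq]; exact hy.1
    exact c.fix_inf_inv hy hyi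

theorem mem3 {H : Subgroup G} (hc : Nat.card H = 3) {z : G} (hz : z ∈ H) (hz1 : z ≠ 1) :
    orderOf z = 3 ∧ ∀ h ∈ H, h = 1 ∨ h = z ∨ h = z⁻¹ := by
  have ho := Cfsg.Agent.Lib.Helper17.orderOf_eq_of_mem_of_card_prime Nat.prime_three H hc z hz hz1
  have hzp := Cfsg.Agent.Lib.Helper17.zpowers_eq_of_mem_of_card_prime Nat.prime_three H hc z hz hz1
  refine ⟨ho, fun h hh => ?_⟩
  rw [← hzp] at hh
  obtain ⟨k, rfl⟩ := Subgroup.mem_zpowers_iff.mp hh
  have h3 : z ^ 3 = 1 := by rw [← ho]; exact pow_orderOf_eq_one z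
  have hk : z ^ k = z ^ (k % 3) := by
    have h := zpow_mod_orderOf z k
    rw [ho] at h
    exact h.symm
  have hcases : k % 3 = 0 ∨ k % 3 = 1 ∨ k % 3 = 2 := by omega
  rcases hcases with h0 | h0 | h0
  · left; rw [hk, h0, zpow_zero]
  · right; left; rw [hk, h0, zpow_one]
  · right; right; rw [hk, h0]
    have e : z ^ (2 : ℤ) * z = z ^ 3 := by group
    rw [h3] at e
    exact eq_inv_of_mul_eq_one_left e

theorem exists_ne_one_of_ne_bot {H : Subgroup G} (h : H ≠ ⊥) : ∃ y ∈ H, y ≠ 1 := by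
  by_contra hc
  push Not at hc
  exact h ((Subgroup.eq_bot_iff_forall _).mpr hc)

/-- the structure theorem for `N(P)` of order 36 -/
theorem n3_cases [Finite G] (c : Ctx P)
    (hN : Nat.card (Subgroup.normalizer (P : Set G)) = 36) :
    (∃ u ∈ Subgroup.normalizer (P : Set G), orderOf u = 4 ∧
        ∀ y ∈ P, u ^ 2 * y * (u ^ 2)⁻¹ = y⁻¹) ∨
      (∃ a b x : G, a ∈ Subgroup.normalizer (P : Set G) ∧
        b ∈ Subgroup.normalizer (P : Set G) ∧ x ∈ P ∧
        orderOf a = 2 ∧ orderOf b = 2 ∧ orderOf x = 3 ∧ a * b = b * a ∧ a ≠ b ∧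
        b * x = x * b ∧ a * x * a⁻¹ = x⁻¹ ∧
        Subgroup.normalizer (P : Set G) ≤
          Subgroup.normalizer ((Subgroup.zpowers x : Subgroup G) : Set G)) := by
  classical
  have hab := c.ab
  obtain ⟨T, hTM, hT4⟩ : ∃ T : Subgroup G, T ≤ Subgroup.normalizer (P : Set G) ∧
      Nat.card T = 4 := by
    have hfact : Fact (Nat.Prime 2) := ⟨Nat.prime_two⟩
    obtain ⟨K, hK⟩ := Sylow.exists_subgroup_card_pow_prime
      (G := ↥(Subgroup.normalizer (P : Set G))) 2 (n := 2) (by rw [hN]; norm_num)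
    refine ⟨K.map (Subgroup.subtype _), Subgroup.map_subtype_le K, ?_⟩
    rw [Subgroup.card_map_of_injective (Subgroup.subtype_injective _), hK]; norm_num
  have hTord : ∀ t ∈ T, orderOf t ∣ 4 := fun t ht => hT4 ▸ Subgroup.orderOf_dvd_natCard T ht
  by_cases hcyc : ∃ u ∈ T, orderOf u = 4
  · -- cyclic case
    obtain ⟨u, huT, hu4⟩ := hcyc
    left
    refine ⟨u, hTM huT, hu4, ?_⟩
    have hu4' : u ^ 4 = 1 := by rw [← hu4]; exact pow_orderOf_eq_one u
    have ht2 : u ^ 2 * u ^ 2 = 1 := by rw [← pow_add]; exact hu4'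
    have ht1 : u ^ 2 ≠ 1 := by
      intro h
      have h' := orderOf_dvd_of_pow_eq_one h
      rw [hu4] at h'
      revert h'; decide
    have htM : u ^ 2 ∈ Subgroup.normalizer (P : Set G) := Subgroup.pow_mem _ (hTM huT) 2
    by_contra hninv
    have hfne : fixP P (u ^ 2) ≠ ⊥ := fun hf => hninv (c.inv_of_fix_bot htM ht2 hf)
    obtain ⟨-, hi3⟩ := c.card_fix_inv htM ht2 ht1 hfne
    obtain ⟨y, hy, hy1⟩ := exists_ne_one_of_ne_bot (c.invP_ne_bot htM ht2 ht1)
    have huy : u * y * u⁻¹ ∈ invP P c.ab (u ^ 2) := by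
      refine ⟨conj_mem_of_mem_normalizer (hTM huT) hy.1, ?_⟩
      have e : u ^ 2 * (u * y * u⁻¹) * (u ^ 2)⁻¹ = u * (u ^ 2 * y * (u ^ 2)⁻¹) * u⁻¹ := by
        simp only [pow_two]; group
      rw [e, hy.2]; group
    obtain ⟨-, hall⟩ := mem3 hi3 hy hy1
    have hcomm : u ^ 2 * y * (u ^ 2)⁻¹ = y := by
      have e : u ^ 2 * y * (u ^ 2)⁻¹ = u * (u * y * u⁻¹) * u⁻¹ := by
        simp only [pow_two]; group
      rcases hall _ huy with h | h | h
      · exfalso; apply hy1
        have e' : y = u⁻¹ * (u * y * u⁻¹) * u := by group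
        rw [e', h]; group
      · rw [e, h, h]
      · rw [e, h]
        have e2 : u * y⁻¹ * u⁻¹ = (u * y * u⁻¹)⁻¹ := by group
        rw [e2, h, inv_inv]
    apply hy1
    apply c.eq_one_of_sq hy.1
    have e : y⁻¹ = y := hy.2.symm.trans hcomm
    calc y * y = y * y⁻¹ := by rw [e]
      _ = 1 := mul_inv_cancel y
  · -- elementary abelian case
    right
    push Not at hcyc
    have hsq : ∀ t ∈ T, t * t = 1 := by
      intro t ht
      have hd := hTord t ht
      have hne := hcyc t ht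
      have h2 : orderOf t ∣ 2 := by
        have hle : orderOf t ≤ 4 := Nat.le_of_dvd (by norm_num) hd
        generalize orderOf t = n at hd hne hle
        interval_cases n <;> omega
      rw [← pow_two]; exact orderOf_dvd_iff_pow_eq_one.mp h2
    have hTab : ∀ s ∈ T, ∀ t ∈ T, s * t = t * s := by
      intro s hs t ht
      have h1 := hsq s hs
      have h2 := hsq t ht
      have h3 := hsq (s * t) (T.mul_mem hs ht)
      calc s * t = s * (s * t * (s * t)) * t := by rw [h3, mul_one]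
        _ = (s * s) * t * s * (t * t) := by group
        _ = t * s := by rw [h1, h2]; group
    have hTN : ∀ t ∈ T, t ∈ Subgroup.normalizer (P : Set G) := fun t ht => hTM ht
    have hex1 : ∃ a ∈ T, a ≠ 1 := by
      apply exists_ne_one_of_ne_bot
      intro h
      rw [h] at hT4; simp at hT4
    have hex2 : ∀ b ∈ T, ∃ a ∈ T, a ≠ 1 ∧ a ≠ b := by
      intro b hb
      by_contra hc'
      push Not at hc'
      have hsub : (T : Set G) ⊆ {1, b} := by
        intro a ha
        by_cases h1 : a = 1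
        · left; exact h1
        · right; exact hc' a ha h1
      have h1 : (T : Set G).ncard ≤ ({1, b} : Set G).ncard :=
        Set.ncard_le_ncard hsub (Set.toFinite _)
      have h2 : ({1, b} : Set G).ncard ≤ 2 :=
        (Set.ncard_insert_le 1 {b}).trans (by rw [Set.ncard_singleton])
      have h3 : Nat.card T = (T : Set G).ncard := Nat.card_coe_set_eq (T : Set G)
      omega
    obtain ⟨b, hbT, hb1, hbf⟩ : ∃ b ∈ T, b ≠ 1 ∧ fixP P b ≠ ⊥ := by
      by_contra hc'
      push Not at hc'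
      obtain ⟨a₀, ha₀, ha₀1⟩ := hex1
      obtain ⟨b₀, hb₀, hb₀1, hb₀a⟩ := hex2 a₀ ha₀
      have hab1 : b₀ * a₀ ≠ 1 := by
        intro h
        apply hb₀a
        have h1 := hsq a₀ ha₀
        calc b₀ = (b₀ * a₀) * a₀ * (a₀ * a₀)⁻¹ := by group
          _ = a₀ := by rw [h, h1]; group
      have i1 := c.inv_of_fix_bot (hTN _ ha₀) (hsq _ ha₀) (hc' a₀ ha₀ ha₀1)
      have i2 := c.inv_of_fix_bot (hTN _ hb₀) (hsq _ hb₀) (hc' b₀ hb₀ hb₀1)
      have i3 := c.inv_of_fix_bot (hTN _ (T.mul_mem hb₀ ha₀)) (hsq _ (T.mul_mem hb₀ ha₀))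
        (hc' _ (T.mul_mem hb₀ ha₀) hab1)
      have hall : ∀ y ∈ P, y = 1 := by
        intro y hy
        apply c.eq_one_of_sq hy
        have h3 := i3 y hy
        have e : b₀ * a₀ * y * (b₀ * a₀)⁻¹ = b₀ * (a₀ * y * a₀⁻¹) * b₀⁻¹ := by group
        rw [e, i1 y hy] at h3
        have e2 : b₀ * y⁻¹ * b₀⁻¹ = (b₀ * y * b₀⁻¹)⁻¹ := by group
        rw [e2, i2 y hy, inv_inv] at h3
        calc y * y = y * y⁻¹ := by rw [← h3]
          _ = 1 := mul_inv_cancel y
      have hbot : P = ⊥ := (Subgroup.eq_bot_iff_forall _).mpr hall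
      have h9 := c.card
      rw [hbot] at h9; simp at h9
    have hb2 := hsq b hbT
    have hbN := hTN b hbT
    obtain ⟨hf3, hi3⟩ := c.card_fix_inv hbN hb2 hb1 hbf
    obtain ⟨x, hx, hx1⟩ := exists_ne_one_of_ne_bot hbf
    obtain ⟨y, hy, hy1⟩ := exists_ne_one_of_ne_bot (c.invP_ne_bot hbN hb2 hb1)
    obtain ⟨hox, hallx⟩ := mem3 hf3 hx hx1
    obtain ⟨-, hally⟩ := mem3 hi3 hy hy1
    obtain ⟨a, haT, ha1, hab'⟩ := hex2 b hbT
    have ha2 := hsq a haT
    have haN := hTN a haT
    have hcomm : a * b = b * a := hTab a haT b hbT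
    have hTfix : ∀ t ∈ T, ∀ z ∈ fixP P b, t * z * t⁻¹ ∈ fixP P b := by
      intro t ht z hz
      refine ⟨conj_mem_of_mem_normalizer (hTN t ht) hz.1, ?_⟩
      have hc2 : b * t = t * b := hTab b hbT t ht
      have e : b * (t * z * t⁻¹) * b⁻¹ = (b * t) * z * (b * t)⁻¹ := by group
      rw [e, hc2]
      have e2 : t * b * z * (t * b)⁻¹ = t * (b * z * b⁻¹) * t⁻¹ := by group
      rw [e2, hz.2]
    have hTinv : ∀ t ∈ T, ∀ z ∈ invP P c.ab b, t * z * t⁻¹ ∈ invP P c.ab b := by
      intro t ht z hz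
      refine ⟨conj_mem_of_mem_normalizer (hTN t ht) hz.1, ?_⟩
      have hc2 : b * t = t * b := hTab b hbT t ht
      have e : b * (t * z * t⁻¹) * b⁻¹ = (b * t) * z * (b * t)⁻¹ := by group
      rw [e, hc2]
      have e2 : t * b * z * (t * b)⁻¹ = t * (b * z * b⁻¹) * t⁻¹ := by group
      rw [e2, hz.2]; group
    have hkey : ∀ t ∈ T, t ≠ 1 → t * x * t⁻¹ = x → t * y * t⁻¹ = y → False := by
      intro t ht ht1 hxt hyt
      have hxf : x ∈ fixP P t := ⟨hx.1, hxt⟩
      have htf : fixP P t ≠ ⊥ := by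
        intro h
        rw [h, Subgroup.mem_bot] at hxf
        exact hx1 hxf
      obtain ⟨hf3', -⟩ := c.card_fix_inv (hTN t ht) (hsq t ht) ht1 htf
      obtain ⟨-, hall'⟩ := mem3 hf3' hxf hx1
      rcases hall' y ⟨hy.1, hyt⟩ with h | h | h
      · exact hy1 h
      · exact hx1 (c.fix_inf_inv hx (h ▸ hy))
      · have h' : y⁻¹ ∈ invP P c.ab b := Subgroup.inv_mem _ hy
        rw [h, inv_inv] at h'
        exact hx1 (c.fix_inf_inv hx h')
    have hax : a * x * a⁻¹ = x⁻¹ := by
      rcases hallx _ (hTfix a haT x hx) with h | h | h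
      · exfalso; apply hx1
        have e : x = a⁻¹ * (a * x * a⁻¹) * a := by group
        rw [e, h]; group
      · exfalso
        rcases hally _ (hTinv a haT y hy) with h' | h' | h'
        · apply hy1
          have e : y = a⁻¹ * (a * y * a⁻¹) * a := by group
          rw [e, h']; group
        · exact hkey a haT ha1 h h'
        · have habT : a * b ∈ T := T.mul_mem haT hbT
          have hab1 : a * b ≠ 1 := by
            intro h1
            apply hab'
            calc a = (a * b) * b * (b * b)⁻¹ := by group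
              _ = b := by rw [h1, hb2]; group
          apply hkey (a * b) habT hab1
          · have e : a * b * x * (a * b)⁻¹ = a * (b * x * b⁻¹) * a⁻¹ := by group
            rw [e, hx.2, h]
          · have e : a * b * y * (a * b)⁻¹ = a * (b * y * b⁻¹) * a⁻¹ := by group
            rw [e, hy.2]
            have e2 : a * y⁻¹ * a⁻¹ = (a * y * a⁻¹)⁻¹ := by group
            rw [e2, h', inv_inv]
      · exact h
    have hfact2 : Fact (Nat.Prime 2) := ⟨Nat.prime_two⟩
    refine ⟨a, b, x, haN, hbN, hx.1, orderOf_eq_prime (by rw [pow_two]; exact ha2) ha1,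
      orderOf_eq_prime (by rw [pow_two]; exact hb2) hb1, hox, hcomm, hab', ?_, hax, ?_⟩
    · calc b * x = b * x * b⁻¹ * b := by group
        _ = x * b := by rw [hx.2]
    · have hzx : Subgroup.zpowers x = fixP P b :=
        Cfsg.Agent.Lib.Helper17.zpowers_eq_of_mem_of_card_prime Nat.prime_three _ hf3 x hx hx1
      rw [hzx]
      have hPle : P ≤ Subgroup.normalizer (P : Set G) ⊓
          Subgroup.normalizer ((fixP P b : Subgroup G) : Set G) := by
        refine le_inf Subgroup.le_normalizer ?_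
        intro p hp
        have hpz : ∀ z ∈ P, p * z * p⁻¹ = z := by
          intro z hz
          rw [hab p hp z hz]; group
        rw [Subgroup.mem_normalizer_iff]
        intro z
        constructor
        · intro hz; rw [hpz z hz.1]; exact hz
        · intro hz
          have hzP : z ∈ P := by
            have e : z = p⁻¹ * (p * z * p⁻¹) * p := by group
            rw [e]; exact P.mul_mem (P.mul_mem (P.inv_mem hp) hz.1) hp
          rw [hpz z hzP] at hz; exact hz
      have hTle : T ≤ Subgroup.normalizer (P : Set G) ⊓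
          Subgroup.normalizer ((fixP P b : Subgroup G) : Set G) := by
        refine le_inf hTM ?_
        intro t ht
        rw [Subgroup.mem_normalizer_iff]
        intro z
        constructor
        · exact hTfix t ht z
        · intro hz
          have h := hTfix t⁻¹ (T.inv_mem ht) _ hz
          have e : t⁻¹ * (t * z * t⁻¹) * t⁻¹⁻¹ = z := by group
          rwa [e] at h
      have h9 : 9 ∣ Nat.card ↥(Subgroup.normalizer (P : Set G) ⊓
          Subgroup.normalizer ((fixP P b : Subgroup G) : Set G)) :=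
        c.card ▸ Subgroup.card_dvd_of_le hPle
      have h4 : 4 ∣ Nat.card ↥(Subgroup.normalizer (P : Set G) ⊓
          Subgroup.normalizer ((fixP P b : Subgroup G) : Set G)) :=
        hT4 ▸ Subgroup.card_dvd_of_le hTle
      have h36 : Nat.card ↥(Subgroup.normalizer (P : Set G) ⊓
          Subgroup.normalizer ((fixP P b : Subgroup G) : Set G)) ∣ 36 :=
        hN ▸ Subgroup.card_dvd_of_le inf_le_left
      have hEq : Subgroup.normalizer (P : Set G) ⊓
          Subgroup.normalizer ((fixP P b : Subgroup G) : Set G)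
          = Subgroup.normalizer (P : Set G) := by
        apply Subgroup.eq_of_le_of_card_ge inf_le_left
        rw [hN]
        have hpos : 0 < Nat.card ↥(Subgroup.normalizer (P : Set G) ⊓
          Subgroup.normalizer ((fixP P b : Subgroup G) : Set G)) := Nat.card_pos
        generalize Nat.card ↥(Subgroup.normalizer (P : Set G) ⊓
          Subgroup.normalizer ((fixP P b : Subgroup G) : Set G)) = n at h9 h4 h36 hpos
        have hle : n ≤ 36 := Nat.le_of_dvd (by norm_num) h36
        omega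
      rw [← hEq]
      exact inf_le_right

end gen

theorem lemN3Cases : LemN3Cases.{u} := by
  intro G _ _ _ hG P hN hC
  have hfact : Fact (Nat.Prime 3) := ⟨Nat.prime_three⟩
  have hP9 : Nat.card (P : Subgroup G) = 9 := by
    have h := Cfsg.Agent.Lib.Helper17.card_sylow_eq_of_card_eq 3 2 280 (by rw [hG]; norm_num) (by norm_num) P
    simpa using h
  have hab : ∀ a ∈ (P : Subgroup G), ∀ b ∈ (P : Subgroup G), a * b = b * a := by
    have hc : IsMulCommutative (P : Subgroup G) :=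
      IsPGroup.isMulCommutative_of_card_eq_prime_sq (p := 3) (by rw [hP9]; norm_num)
    intro a ha b hb
    exact congrArg Subtype.val (hc.1.1 ⟨a, ha⟩ ⟨b, hb⟩)
  have c : Ctx (P : Subgroup G) := ⟨hP9, hab, fun g hg => by
    rw [← hC, Subgroup.mem_centralizer_iff]
    intro y hy
    exact (hg y hy).symm⟩
  exact n3_cases c hN

end Cfsg.Agent.Lib.Helper38.A7
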