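import Mathlib
import Cfsg.Agent.Lib.Helper6.A7.Defs
import Cfsg.Agent.Lib.Helper17.Simple
import Cfsg.Agent.Lib.Helper17.Count
import Cfsg.Agent.Lib.Helper38.A7.LemN3Cases

/-!
# S0984 package [F2b] (for helper6): the four-group alternative for `N(P₃)` is impossible.
-/

set_option autoImplicit false

universe u

namespace Cfsg.Agent.Lib.Helper38.A7

open Cfsg.Agent.Lib.Helper6.A7

/-- Sylow counting inside a subgroup `H` whose Sylow `p`-subgroup `X` is given by its order. -/
theorem sylow_count_in {G : Type*} [Group G] [Finite G] (p k m : ℕ) [Fact p.Prime]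
    (H X : Subgroup G) (hXH : X ≤ H) (hX : Nat.card X = p ^ k) (hH : Nat.card H = p ^ k * m)
    (hm : ¬ p ∣ m) :
    ∃ n, n % p = 1 ∧ n * Nat.card ↥(Subgroup.normalizer (X : Set G) ⊓ H) = Nat.card H := by
  have hX' : Nat.card (X.subgroupOf H) = p ^ k := by
    rw [← hX]; exact Nat.card_congr (Subgroup.subgroupOfEquivOfLe hXH).toEquiv
  have hp : IsPGroup p (X.subgroupOf H) := IsPGroup.of_card hX'
  obtain ⟨S, hS⟩ := hp.exists_le_sylow
  have hS' : Nat.card (S : Subgroup H) = p ^ k :=
    Cfsg.Agent.Lib.Helper17.card_sylow_eq_of_card_eq p k m hH hm S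
  have hEq : X.subgroupOf H = (S : Subgroup H) :=
    Subgroup.eq_of_le_of_card_ge hS (by rw [hS', hX'])
  have h1 := Cfsg.Agent.Lib.Helper17.card_sylow_mul_card_normalizer p S
  rw [← hEq, ← Subgroup.subgroupOf_normalizer_eq hXH] at h1
  have h2 : Nat.card ((Subgroup.normalizer (X : Set G)).subgroupOf H) =
      Nat.card (Subgroup.normalizer (X : Set G) ⊓ H : Subgroup G) := by
    rw [← Subgroup.inf_subgroupOf_right]
    exact Nat.card_congr (Subgroup.subgroupOfEquivOfLe inf_le_right).toEquiv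
  rw [h2] at h1
  exact ⟨_, Cfsg.Agent.Lib.Helper17.card_sylow_mod p, h1⟩

/-- with self-centralizing Sylow `q`-subgroups of order `q`, an element commuting with an element
of order `q` is a power of it -/
theorem mem_zpowers_of_commute_prime {G : Type*} [Group G] [Finite G] (q m : ℕ) [Fact q.Prime]
    (hG : Nat.card G = q ^ 1 * m) (hm : ¬ q ∣ m)
    (hc : ∀ Q : Sylow q G, Subgroup.centralizer ((Q : Subgroup G) : Set G) = (Q : Subgroup G))
    (g z : G) (hg : orderOf g = q) (hcomm : z * g = g * z) : z ∈ Subgroup.zpowers g := by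
  have hp : IsPGroup q (Subgroup.zpowers g) :=
    IsPGroup.of_card (n := 1) (by rw [Nat.card_zpowers, hg, pow_one])
  obtain ⟨Q, hQ⟩ := hp.exists_le_sylow
  have hQc := Cfsg.Agent.Lib.Helper17.card_sylow_eq_of_card_eq q 1 m hG hm Q
  have hEq : Subgroup.zpowers g = (Q : Subgroup G) :=
    Subgroup.eq_of_le_of_card_ge hQ (by rw [hQc, Nat.card_zpowers, hg, pow_one])
  have hzc : z ∈ Subgroup.centralizer ((Q : Subgroup G) : Set G) := by
    rw [← hEq, Subgroup.mem_centralizer_iff]
    intro h hh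
    obtain ⟨k, rfl⟩ := Subgroup.mem_zpowers_iff.mp hh
    have hcm : Commute z g := hcomm
    exact (hcm.zpow_right k).eq.symm
  rw [hc Q, ← hEq] at hzc
  exact hzc

theorem not_dvd_card_of_commute {G : Type*} [Group G] [Finite G] (q m : ℕ) [Fact q.Prime]
    (hG : Nat.card G = q ^ 1 * m) (hm : ¬ q ∣ m)
    (hc : ∀ Q : Sylow q G, Subgroup.centralizer ((Q : Subgroup G) : Set G) = (Q : Subgroup G))
    (z : G) (hz : ¬ orderOf z ∣ q) (H : Subgroup G) (hH : ∀ h ∈ H, z * h = h * z) :
    ¬ q ∣ Nat.card H := by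
  intro hq
  obtain ⟨g, hg⟩ := exists_prime_orderOf_dvd_card' q hq
  have hg' : orderOf (g : G) = q := by rw [Subgroup.orderOf_coe]; exact hg
  have hmem := mem_zpowers_of_commute_prime q m hG hm hc (g : G) z hg' (hH g g.2)
  have h := Subgroup.orderOf_dvd_natCard _ hmem
  rw [Nat.card_zpowers, hg'] at h
  exact hz h

theorem not_dvd_card_normalizer_zpowers {G : Type*} [Group G] [Finite G] (q m : ℕ)
    [Fact q.Prime] (hG : Nat.card G = q ^ 1 * m) (hm : ¬ q ∣ m)
    (hc : ∀ Q : Sylow q G, Subgroup.centralizer ((Q : Subgroup G) : Set G) = (Q : Subgroup G))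
    (hq2 : q ≠ 2) (hq3 : q ≠ 3) (x : G) (hxo : orderOf x = 3) :
    ¬ q ∣ Nat.card (Subgroup.normalizer ((Subgroup.zpowers x : Subgroup G) : Set G)) := by
  intro hq
  have hqp : q.Prime := Fact.out
  obtain ⟨g, hg⟩ := exists_prime_orderOf_dvd_card' q hq
  have hg' : orderOf (g : G) = q := by rw [Subgroup.orderOf_coe]; exact hg
  have hX3 : Nat.card (Subgroup.zpowers x) = 3 := by rw [Nat.card_zpowers, hxo]
  have hx1 : x ≠ 1 := by
    intro h
    rw [h, orderOf_one] at hxo
    norm_num at hxo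
  have hgx : (g : G) * x * (g : G)⁻¹ ∈ Subgroup.zpowers x :=
    (Subgroup.mem_normalizer_iff.mp g.2 x).mp (Subgroup.mem_zpowers x)
  obtain ⟨-, hall⟩ := mem3 hX3 (Subgroup.mem_zpowers x) hx1
  have hnd : ¬ orderOf x ∣ q := by
    rw [hxo]
    intro h3
    exact hq3 ((Nat.prime_dvd_prime_iff_eq Nat.prime_three hqp).mp h3).symm
  rcases hall _ hgx with h | h | h
  · apply hx1
    have e : x = (g : G)⁻¹ * ((g : G) * x * (g : G)⁻¹) * (g : G) := by group
    rw [e, h]; group
  · have hcm : x * (g : G) = (g : G) * x := by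
      calc x * (g : G) = ((g : G) * x * (g : G)⁻¹) * (g : G) := by rw [h]
        _ = (g : G) * x := by group
    have hmem := mem_zpowers_of_commute_prime q m hG hm hc (g : G) x hg' hcm
    have h' := Subgroup.orderOf_dvd_natCard _ hmem
    rw [Nat.card_zpowers, hg'] at h'
    exact hnd h'
  · have e2 : (g : G) ^ 2 * x * ((g : G) ^ 2)⁻¹ = x := by
      have e : (g : G) ^ 2 * x * ((g : G) ^ 2)⁻¹
          = (g : G) * ((g : G) * x * (g : G)⁻¹) * (g : G)⁻¹ := by
        simp only [pow_two]; group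
      rw [e, h]
      have e3 : (g : G) * x⁻¹ * (g : G)⁻¹ = ((g : G) * x * (g : G)⁻¹)⁻¹ := by group
      rw [e3, h, inv_inv]
    have hcm : x * (g : G) ^ 2 = (g : G) ^ 2 * x := by
      calc x * (g : G) ^ 2 = ((g : G) ^ 2 * x * ((g : G) ^ 2)⁻¹) * (g : G) ^ 2 := by rw [e2]
        _ = (g : G) ^ 2 * x := by group
    have hg2 : orderOf ((g : G) ^ 2) = q := by
      have hco : (orderOf (g : G)).Coprime 2 := by
        rw [hg']; exact (Nat.coprime_primes hqp Nat.prime_two).mpr hq2
      rw [hco.orderOf_pow, hg']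
    have hmem := mem_zpowers_of_commute_prime q m hG hm hc ((g : G) ^ 2) x hg2 hcm
    have h' := Subgroup.orderOf_dvd_natCard _ hmem
    rw [Nat.card_zpowers, hg2] at h'
    exact hnd h'

/-- an involution does not centralize a Sylow `3`-subgroup when `C(P) = P` has order nine -/
theorem not_nine_dvd_card_centralizer {G : Type*} [Group G] [Finite G] [Fact (Nat.Prime 3)]
    (P : Sylow 3 G) (hG : Nat.card G = 3 ^ 2 * 280)
    (hCP : Subgroup.centralizer ((P : Subgroup G) : Set G) = (P : Subgroup G)) (b : G)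
    (hbo : orderOf b = 2) : ¬ 9 ∣ Nat.card (Subgroup.centralizer ({b} : Set G)) := by
  intro h9
  have hP9 : Nat.card (P : Subgroup G) = 9 := by
    have h := Cfsg.Agent.Lib.Helper17.card_sylow_eq_of_card_eq 3 2 280 hG (by norm_num) P
    simpa using h
  obtain ⟨K, hK⟩ := Sylow.exists_subgroup_card_pow_prime
    (G := ↥(Subgroup.centralizer ({b} : Set G))) 3 (n := 2) (by norm_num; exact h9)
  have hK' : Nat.card (K.map (Subgroup.subtype _)) = 9 := by
    rw [Subgroup.card_map_of_injective (Subgroup.subtype_injective _), hK]; norm_num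
  have hKle : K.map (Subgroup.subtype _) ≤ Subgroup.centralizer ({b} : Set G) :=
    Subgroup.map_subtype_le K
  have hp : IsPGroup 3 (K.map (Subgroup.subtype (Subgroup.centralizer ({b} : Set G)))) :=
    IsPGroup.of_card (n := 2) (by rw [hK']; norm_num)
  obtain ⟨Q, hQ⟩ := hp.exists_le_sylow
  have hQ9 : Nat.card (Q : Subgroup G) = 9 := by
    have h := Cfsg.Agent.Lib.Helper17.card_sylow_eq_of_card_eq 3 2 280 hG (by norm_num) Q
    simpa using h
  have hKQ : K.map (Subgroup.subtype _) = (Q : Subgroup G) :=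
    Subgroup.eq_of_le_of_card_ge hQ (by rw [hQ9, hK'])
  obtain ⟨g, hg⟩ := MulAction.exists_smul_eq G Q P
  have hmem : g * b * g⁻¹ ∈ (P : Subgroup G) := by
    rw [← hCP, Subgroup.mem_centralizer_iff]
    intro y hy
    have hy' : g⁻¹ * y * g ∈ (Q : Subgroup G) := by
      have hy2 : y ∈ ((g • Q : Sylow 3 G) : Subgroup G) := by rw [hg]; exact hy
      rw [Sylow.coe_subgroup_smul, Subgroup.mem_pointwise_smul_iff_inv_smul_mem] at hy2
      simpa [MulAut.smul_def, MulAut.conj_inv_apply] using hy2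
    have hyC : g⁻¹ * y * g ∈ Subgroup.centralizer ({b} : Set G) :=
      hKle (by rw [hKQ]; exact hy')
    have hcomm : b * (g⁻¹ * y * g) = (g⁻¹ * y * g) * b :=
      Subgroup.mem_centralizer_iff.mp hyC b rfl
    calc y * (g * b * g⁻¹) = g * ((g⁻¹ * y * g) * b) * g⁻¹ := by group
      _ = g * (b * (g⁻¹ * y * g)) * g⁻¹ := by rw [hcomm]
      _ = g * b * g⁻¹ * y := by group
  have h1 : (g * b * g⁻¹) ^ 9 = 1 := by
    have h : (⟨_, hmem⟩ : (P : Subgroup G)) ^ Nat.card (P : Subgroup G) = 1 := pow_card_eq_one'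
    rw [hP9] at h
    simpa using congrArg Subtype.val h
  rw [conj_pow] at h1
  have h2 : b ^ 9 = 1 := by
    have e : b ^ 9 = g⁻¹ * (g * b ^ 9 * g⁻¹) * g := by group
    rw [e, h1]; group
  have h3 := orderOf_dvd_of_pow_eq_one h2
  rw [hbo] at h3
  omega

theorem lemN3NoV4 : LemN3NoV4.{u} := by
  intro G _ _ _ hD hTC P hN hCP a b x haN hbN hxP hao hbo hxo hab hne hbx hax hNX
  classical
  have hG := hD.card
  have hf3 : Fact (Nat.Prime 3) := ⟨Nat.prime_three⟩
  have hf5 : Fact (Nat.Prime 5) := ⟨by norm_num⟩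
  have hf7 : Fact (Nat.Prime 7) := ⟨by norm_num⟩
  have hP9 : Nat.card (P : Subgroup G) = 9 := by
    have h := Cfsg.Agent.Lib.Helper17.card_sylow_eq_of_card_eq 3 2 280 (by rw [hG]; norm_num)
      (by norm_num) P
    simpa using h
  have hX3 : Nat.card (Subgroup.zpowers x) = 3 := by rw [Nat.card_zpowers, hxo]
  -- (i) the centralizer of `b` has order 24
  have hbC : ∀ h ∈ Subgroup.centralizer ({b} : Set G), b * h = h * b :=
    fun h hh => Subgroup.mem_centralizer_iff.mp hh b rfl
  have hC5 := not_dvd_card_of_commute 5 504 (by rw [hG]; norm_num) (by norm_num) hD.c5 b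
    (by rw [hbo]; norm_num) _ hbC
  have hC7 := not_dvd_card_of_commute 7 360 (by rw [hG]; norm_num) (by norm_num) hD.c7 b
    (by rw [hbo]; norm_num) _ hbC
  have hC8 : 8 ∣ Nat.card (Subgroup.centralizer ({b} : Set G)) := hTC b hbo
  have hxC : x ∈ Subgroup.centralizer ({b} : Set G) := by
    rw [Subgroup.mem_centralizer_iff]
    intro h hh
    rw [Set.mem_singleton_iff] at hh
    rw [hh]; exact hbx
  have haC : a ∈ Subgroup.centralizer ({b} : Set G) := by
    rw [Subgroup.mem_centralizer_iff]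
    intro h hh
    rw [Set.mem_singleton_iff] at hh
    rw [hh]; exact hab.symm
  have hbC' : b ∈ Subgroup.centralizer ({b} : Set G) := by
    rw [Subgroup.mem_centralizer_iff]
    intro h hh
    rw [Set.mem_singleton_iff] at hh
    rw [hh]
  have hC3 : 3 ∣ Nat.card (Subgroup.centralizer ({b} : Set G)) := by
    have h := Subgroup.orderOf_dvd_natCard _ hxC
    rwa [hxo] at h
  have hCd : Nat.card (Subgroup.centralizer ({b} : Set G)) ∣ 2520 :=
    hG ▸ Subgroup.card_subgroup_dvd_card _
  have hC9 : ¬ 9 ∣ Nat.card (Subgroup.centralizer ({b} : Set G)) :=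
    not_nine_dvd_card_centralizer P (by rw [hG]; norm_num) hCP b hbo
  have hC24 : Nat.card (Subgroup.centralizer ({b} : Set G)) = 24 := by
    generalize Nat.card (Subgroup.centralizer ({b} : Set G)) = n at hC5 hC7 hC8 hC3 hCd hC9
    obtain ⟨k, rfl⟩ : 24 ∣ n := by omega
    have hk : k ∣ 105 := Nat.dvd_of_mul_dvd_mul_left (by norm_num : 0 < 24) hCd
    have hkle : k ≤ 105 := Nat.le_of_dvd (by norm_num) hk
    interval_cases k <;> omega
  -- (ii) the centralizer of `b` normalizes `⟨x⟩`
  have hXC : Subgroup.zpowers x ≤ Subgroup.centralizer ({b} : Set G) :=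
    Subgroup.zpowers_le.mpr hxC
  obtain ⟨n, hn1, hn2⟩ := sylow_count_in 3 1 8 _ _ hXC (by rw [hX3]; norm_num)
    (by rw [hC24]; norm_num) (by norm_num)
  have hxN : x ∈ Subgroup.normalizer ((Subgroup.zpowers x : Subgroup G) : Set G) :=
    Subgroup.le_normalizer (Subgroup.mem_zpowers x)
  have hxD : x ∈ Subgroup.normalizer ((Subgroup.zpowers x : Subgroup G) : Set G) ⊓
      Subgroup.centralizer ({b} : Set G) := ⟨hxN, hxC⟩
  have hbD : b ∈ Subgroup.normalizer ((Subgroup.zpowers x : Subgroup G) : Set G) ⊓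
      Subgroup.centralizer ({b} : Set G) := ⟨hNX hbN, hbC'⟩
  have haD : a ∈ Subgroup.normalizer ((Subgroup.zpowers x : Subgroup G) : Set G) ⊓
      Subgroup.centralizer ({b} : Set G) := ⟨hNX haN, haC⟩
  have hbxo : orderOf (b * x) = 6 := by
    have hcm : Commute b x := hbx
    rw [hcm.orderOf_mul_eq_mul_orderOf_of_coprime (by rw [hbo, hxo]; norm_num), hbo, hxo]
  have h6 : 6 ∣ Nat.card ↥(Subgroup.normalizer ((Subgroup.zpowers x : Subgroup G) : Set G) ⊓
      Subgroup.centralizer ({b} : Set G)) := by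
    have h := Subgroup.orderOf_dvd_natCard _ (Subgroup.mul_mem _ hbD hxD)
    rwa [hbxo] at h
  have hD6 : Nat.card ↥(Subgroup.normalizer ((Subgroup.zpowers x : Subgroup G) : Set G) ⊓
      Subgroup.centralizer ({b} : Set G)) ≠ 6 := by
    intro h6'
    have hz : Subgroup.zpowers (b * x) =
        Subgroup.normalizer ((Subgroup.zpowers x : Subgroup G) : Set G) ⊓
          Subgroup.centralizer ({b} : Set G) :=
      Subgroup.eq_of_le_of_card_ge (Subgroup.zpowers_le.mpr (Subgroup.mul_mem _ hbD hxD))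
        (by rw [Nat.card_zpowers, hbxo, h6'])
    rw [← hz] at haD hxD
    obtain ⟨i, hi⟩ := Subgroup.mem_zpowers_iff.mp haD
    obtain ⟨j, hj⟩ := Subgroup.mem_zpowers_iff.mp hxD
    have hcomm : a * x = x * a := by
      have h1 : Commute ((b * x) ^ i) ((b * x) ^ j) := (Commute.refl (b * x)).zpow_zpow i j
      rw [hi, hj] at h1
      exact h1.eq
    have hxx : x⁻¹ = x := by
      rw [← hax, hcomm]; group
    have hx2 : x ^ 2 = 1 := by
      rw [pow_two]
      calc x * x = x⁻¹ * x := by rw [hxx]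
        _ = 1 := inv_mul_cancel x
    have h3 := orderOf_dvd_of_pow_eq_one hx2
    rw [hxo] at h3
    omega
  have hD24 : Nat.card ↥(Subgroup.normalizer ((Subgroup.zpowers x : Subgroup G) : Set G) ⊓
      Subgroup.centralizer ({b} : Set G)) = 24 := by
    rw [hC24] at hn2
    generalize Nat.card ↥(Subgroup.normalizer ((Subgroup.zpowers x : Subgroup G) : Set G) ⊓
      Subgroup.centralizer ({b} : Set G)) = d at hn2 h6 hD6
    obtain ⟨e, rfl⟩ := h6
    have h4 : n * e = 4 := by
      have : 6 * (n * e) = 24 := by rw [← hn2]; ring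
      omega
    have hele : e ≤ 4 := Nat.le_of_dvd (by norm_num) (Dvd.intro_left n h4)
    have hnle : n ≤ 4 := Nat.le_of_dvd (by norm_num) (Dvd.intro e h4)
    interval_cases e <;> interval_cases n <;> omega
  have hCle : Subgroup.centralizer ({b} : Set G) ≤
      Subgroup.normalizer ((Subgroup.zpowers x : Subgroup G) : Set G) := by
    have hEq : Subgroup.normalizer ((Subgroup.zpowers x : Subgroup G) : Set G) ⊓
        Subgroup.centralizer ({b} : Set G) = Subgroup.centralizer ({b} : Set G) :=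
      Subgroup.eq_of_le_of_card_ge inf_le_right (by rw [hD24, hC24])
    rw [← hEq]; exact inf_le_left
  -- (iii) the normalizer of `⟨x⟩` has order 72
  have hL36 : 36 ∣ Nat.card (Subgroup.normalizer ((Subgroup.zpowers x : Subgroup G) : Set G)) :=
    hN ▸ Subgroup.card_dvd_of_le hNX
  have hL24 : 24 ∣ Nat.card (Subgroup.normalizer ((Subgroup.zpowers x : Subgroup G) : Set G)) :=
    hC24 ▸ Subgroup.card_dvd_of_le hCle
  have hLd : Nat.card (Subgroup.normalizer ((Subgroup.zpowers x : Subgroup G) : Set G)) ∣ 2520 :=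
    hG ▸ Subgroup.card_subgroup_dvd_card _
  have hL5 := not_dvd_card_normalizer_zpowers 5 504 (by rw [hG]; norm_num) (by norm_num) hD.c5
    (by norm_num) (by norm_num) x hxo
  have hL7 := not_dvd_card_normalizer_zpowers 7 360 (by rw [hG]; norm_num) (by norm_num) hD.c7
    (by norm_num) (by norm_num) x hxo
  have hL72 : Nat.card (Subgroup.normalizer ((Subgroup.zpowers x : Subgroup G) : Set G))
      = 72 := by
    generalize Nat.card (Subgroup.normalizer ((Subgroup.zpowers x : Subgroup G) : Set G)) = l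
      at hL36 hL24 hLd hL5 hL7
    obtain ⟨k, rfl⟩ : 72 ∣ l := by omega
    have hk : k ∣ 35 := Nat.dvd_of_mul_dvd_mul_left (by norm_num : 0 < 72) hLd
    have hkle : k ≤ 35 := Nat.le_of_dvd (by norm_num) hk
    interval_cases k <;> omega
  -- (iv) Sylow counting in the normalizer of `⟨x⟩`
  have hPL : (P : Subgroup G) ≤
      Subgroup.normalizer ((Subgroup.zpowers x : Subgroup G) : Set G) :=
    Subgroup.le_normalizer.trans hNX
  obtain ⟨n', hn1', hn2'⟩ := sylow_count_in 3 2 8 _ _ hPL (by rw [hP9]; norm_num)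
    (by rw [hL72]; norm_num) (by norm_num)
  have hinf : Subgroup.normalizer ((P : Subgroup G) : Set G) ⊓
      Subgroup.normalizer ((Subgroup.zpowers x : Subgroup G) : Set G)
      = Subgroup.normalizer ((P : Subgroup G) : Set G) := inf_eq_left.mpr hNX
  rw [hinf, hN, hL72] at hn2'
  omega

end Cfsg.Agent.Lib.Helper38.A7
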